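import Cfsg.Agent.H322.Tri.Fin

/-!
# Normal subgroups of 3-transitive groups of degree divisible by 3: the final step
-/

set_option autoImplicit false

namespace Cfsg.Agent.H322.Tri

open Subgroup MulAction
open Cfsg.Agent.HKS (HKSBelow)
open Cfsg.Agent.KantorSeitz (ofBase mem_ofBase ofBase_self)

universe v

section

variable {G Ω : Type v} [Group G] [Finite G] [MulAction G Ω] [FaithfulSMul G Ω] [Finite Ω]

theorem claim2 (hall : ∀ n, HKSBelow.{v} n)
    (hFT : ∀ (J : Type v) [Group J] [Finite J], Odd (Nat.card J) → Group.IsSolvable J)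
    (h3 : T3 G Ω) (hd : 3 ∣ Nat.card Ω) (h4 : 4 ∣ Nat.card Ω) (hcard : 3 < Nat.card Ω)
    (H : Subgroup G) [hHn : H.Normal] (hH : H ≠ ⊥)
    (htwo : ∀ a b : Ω, b ≠ a → Two H a b) (hn3 : ¬ S3 Ω H) :
    ∃ (L : Subgroup G) (F : Type) (_ : Field F) (_ : Fintype F), L ≤ H ∧ L.Normal ∧
      Fintype.card F + 1 = Nat.card Ω ∧ Nonempty (L ≃* Matrix.ProjectiveSpecialLinearGroup (Fin 2) F) := by
  classical
  have hne : Nonempty Ω := by
    rw [← Finite.card_pos_iff]
    omega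
  obtain ⟨a⟩ := hne
  have hev : Even (Nat.card Ω) := by
    rw [even_iff_two_dvd]
    exact dvd_trans (by norm_num) h4
  have hodd := odd_stab h3 h4 H (normal_two h3 hd hcard H hH) htwo hn3 a
  have hsol : Group.IsSolvable (st H a) := hFT _ hodd
  obtain ⟨R, hRH, hR⟩ := exists_min h3 hcard H a (exists_fix_ne h3 hd hev H hH a)
  have hReg : Reg R a := by
    rcases hR with hR | hR
    · exact hR
    exfalso
    have hle : R ≤ st H a := fun x hx => ⟨hRH hx, hR.fix x hx⟩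
    have hRs : Group.IsSolvable R := Group.isSolvable_of_isSolvable_injective (Subgroup.inclusion_injective hle)
    have := hR.simple
    obtain ⟨x, y, hxy⟩ := hR.ncomm
    exact hxy (IsSimpleGroup.comm_iff_isSolvable.2 hRs x y)
  obtain ⟨⟨F, hF1, hF2, hF3, hF4⟩, -⟩ := hReg.main hall hev hd
  refine ⟨_, F, hF1, hF2, ofBase_le hReg hRH, ⟨?_⟩, hF3, hF4⟩
  intro n hn g
  have hS := hReg.ssplit (by omega)
  have key : (⨆ c, ofBase R a c : Subgroup G).map (MulAut.conj g).toMonoidHom ≤ ⨆ c, ofBase R a c := by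
    rw [Subgroup.map_iSup, iSup_le_iff]
    rintro c _ ⟨x, hx, rfl⟩
    exact (le_iSup (fun c => (ofBase R a c : Subgroup G)) (g • c)) (hS.conj g hx)
  exact key ⟨n, hn, rfl⟩

end

section

universe u

variable {G : Type u} {Ω : Type v} [Group G] [Finite G] [MulAction G Ω] [FaithfulSMul G Ω] [Finite Ω]

omit [FaithfulSMul G Ω] in
theorem card_orbits (H : Subgroup G) (hH2 : S2 Ω H) (htwo : ∀ a b : Ω, b ≠ a → Two H a b) (hcard : 2 < Nat.card Ω) :
    Nat.card (MulAction.orbitRel.Quotient ↥H (Fin 3 ↪ Ω)) ≤ 2 := by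
  classical
  have := Fintype.ofFinite Ω
  have := Fintype.ofFinite (MulAction.orbitRel.Quotient ↥H (Fin 3 ↪ Ω))
  rw [Nat.card_eq_fintype_card]
  by_contra hcon
  rw [not_le, Fintype.two_lt_card_iff] at hcon
  obtain ⟨x, y, z, hxy, hxz, hyz⟩ := hcon
  induction x using Quotient.inductionOn' with | _ x => ?_
  induction y using Quotient.inductionOn' with | _ y => ?_
  induction z using Quotient.inductionOn' with | _ z => ?_
  have hne : Nonempty Ω := ⟨x 0⟩
  obtain ⟨a⟩ := hne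
  obtain ⟨b, hba, -⟩ := Cfsg.Agent.HKS.SSplit.three_of_card hcard a a
  have step : ∀ w : Fin 3 ↪ Ω, ∃ g ∈ H, g • w 0 = a ∧ g • w 1 = b ∧ g • w 2 ≠ a ∧ g • w 2 ≠ b := by
    intro w
    obtain ⟨g, hg, hga, hgb⟩ := hH2 (w 0) (w 1) a b (fun h => absurd (w.injective h) (by decide)) hba.symm
    refine ⟨g, hg, hga, hgb, ?_, ?_⟩
    · intro h
      exact absurd (w.injective (MulAction.injective g (h.trans hga.symm))) (by decide)
    · intro h
      exact absurd (w.injective (MulAction.injective g (h.trans hgb.symm))) (by decide)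
  have fin : ∀ w w' : Fin 3 ↪ Ω, ∀ g ∈ H, ∀ g' ∈ H, ∀ k ∈ H, g • w 0 = a → g • w 1 = b → g' • w' 0 = a → g' • w' 1 = b →
      k • a = a → k • b = b → k • g • w 2 = g' • w' 2 → 
      (Quotient.mk'' w : MulAction.orbitRel.Quotient ↥H (Fin 3 ↪ Ω)) = Quotient.mk'' w' := by
    intro w w' g hg g' hg' k hk h0 h1 h0' h1' hka hkb h2
    apply Eq.symm
    apply Quotient.sound'
    change w' ∈ orbit H w
    refine ⟨⟨g'⁻¹ * k * g, mul_mem (mul_mem (inv_mem hg') hk) hg⟩, ?_⟩
    ext i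
    change (g'⁻¹ * k * g) • w i = w' i
    rw [mul_smul, mul_smul, inv_smul_eq_iff]
    fin_cases i
    · change k • g • w 0 = g' • w' 0
      rw [h0, hka, h0']
    · change k • g • w 1 = g' • w' 1
      rw [h1, hkb, h1']
    · exact h2
  obtain ⟨g₁, hg₁, h10, h11, h12, h13⟩ := step x
  obtain ⟨g₂, hg₂, h20, h21, h22, h23⟩ := step y
  obtain ⟨g₃, hg₃, h30, h31, h32, h33⟩ := step z
  obtain ⟨k, hk, hka, hkb, h5⟩ := htwo a b hba (g₁ • x 2) (g₂ • y 2) (g₃ • z 2) h12 h13 h22 h23 h32 h33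
  rcases h5 with h5 | h5 | h5
  · exact hxy (fin x y g₁ hg₁ g₂ hg₂ k hk h10 h11 h20 h21 hka hkb h5)
  · exact hxz (fin x z g₁ hg₁ g₃ hg₃ k hk h10 h11 h30 h31 hka hkb h5)
  · exact hyz (fin y z g₂ hg₂ g₃ hg₃ k hk h20 h21 h30 h31 hka hkb h5)

/-- the final form, elementwise -/
theorem final (hall : ∀ n, HKSBelow.{v} n)
    (hSuz : ∀ (J : Type v) [Group J] [Finite J] [IsSimpleGroup J], (∃ a b : J, a * b ≠ b * a) →
      ¬ 3 ∣ Nat.card J → Cfsg.Lie.IsoSuzuki J)
    (hFT : ∀ (J : Type v) [Group J] [Finite J], Odd (Nat.card J) → Group.IsSolvable J)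
    (h3 : T3 G Ω) (hd : 3 ∣ Nat.card Ω) (hcard : 3 < Nat.card Ω)
    (H : Subgroup G) [hHn : H.Normal] (hH : H ≠ ⊥) :
    Nat.card (MulAction.orbitRel.Quotient ↥H (Fin 3 ↪ Ω)) ≤ 2 ∧
      (Nat.card Ω % 4 ≠ 2 → S3 Ω H ∨
        ∃ (N : Subgroup ↥H) (F : Type) (_ : Field F) (_ : Fintype F), N.Normal ∧ Fintype.card F + 1 = Nat.card Ω ∧
          Nonempty (↥N ≃* Matrix.ProjectiveSpecialLinearGroup (Fin 2) F)) := by
  classical
  have := Fintype.ofFinite Ω
  have htwo : ∀ a b : Ω, b ≠ a → Two H a b := fun a b hba => two_of_three hall hSuz h3 hd H hH hba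
  have hH2 := normal_two h3 hd hcard H hH
  refine ⟨card_orbits H hH2 htwo (by omega), ?_⟩
  intro h42
  rcases Nat.even_or_odd (Nat.card Ω) with hev | hodd
  swap
  · left
    intro a b c a' b' c' hab hac hbc hab' hac' hbc'
    have h5 : 5 ≤ Nat.card Ω := by
      obtain ⟨k, hk⟩ := hodd
      omega
    rw [Nat.card_eq_fintype_card] at hodd h5
    exact Cfsg.Agent.S0699.three_trans hodd h5 h3 H hH a b c a' b' c' hab hac hbc hab' hac' hbc'
  have h4 : 4 ∣ Nat.card Ω := by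
    obtain ⟨k, hk⟩ := hev
    omega
  by_cases hS3 : S3 Ω H
  · exact Or.inl hS3
  right
  -- transfer to the permutation group
  let φ : G →* Equiv.Perm Ω := MulAction.toPermHom G Ω
  have hφ : Function.Injective φ := MulAction.toPerm_injective
  let e : G ≃* φ.range := MonoidHom.ofInjective hφ
  have he : ∀ g : G, ∀ x : Ω, (e g) • x = g • x := fun g x => rfl
  have he' : ∀ g : φ.range, ∀ x : Ω, (e.symm g) • x = g • x := by
    intro g x
    rw [← he, e.apply_symm_apply]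
  have hfin : Finite φ.range := Finite.of_surjective e e.surjective
  let H₁ : Subgroup φ.range := H.map e.toMonoidHom
  have hH₁ : ∀ x : φ.range, x ∈ H₁ ↔ e.symm x ∈ H := by
    intro x
    constructor
    · rintro ⟨y, hy, rfl⟩
      change e.symm (e y) ∈ H
      rwa [e.symm_apply_apply]
    · intro hx
      exact ⟨e.symm x, hx, e.apply_symm_apply x⟩
  have hH₁n : H₁.Normal := by
    constructor
    intro n hn g
    rw [hH₁] at hn ⊢
    rw [map_mul, map_mul, map_inv]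
    exact hHn.conj_mem _ hn _
  have h3' : T3 φ.range Ω := by
    intro a b c a' b' c' hab hac hbc hab' hac' hbc'
    obtain ⟨g, hga, hgb, hgc⟩ := h3 a b c a' b' c' hab hac hbc hab' hac' hbc'
    exact ⟨e g, hga, hgb, hgc⟩
  have hH₁b : H₁ ≠ ⊥ := by
    intro h
    apply hH
    rw [eq_bot_iff]
    intro x hx
    have h5 : e x ∈ H₁ := ⟨x, hx, rfl⟩
    rw [h, mem_bot] at h5
    rw [mem_bot]
    exact e.injective (h5.trans (map_one e).symm)
  have htwo' : ∀ a b : Ω, b ≠ a → Two H₁ a b := by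
    intro a b hba c₁ c₂ c₃ h1 h2 h3 h4 h5 h6
    obtain ⟨g, hg, h7, h8, h9⟩ := htwo a b hba c₁ c₂ c₃ h1 h2 h3 h4 h5 h6
    exact ⟨e g, ⟨g, hg, rfl⟩, h7, h8, h9⟩
  have hn3' : ¬ S3 Ω H₁ := by
    intro h
    apply hS3
    intro a b c a' b' c' hab hac hbc hab' hac' hbc'
    obtain ⟨g, hg, hga, hgb, hgc⟩ := h a b c a' b' c' hab hac hbc hab' hac' hbc'
    exact ⟨e.symm g, (hH₁ g).1 hg, by rw [he', hga], by rw [he', hgb], by rw [he', hgc]⟩
  obtain ⟨L, F, hF1, hF2, hLH, hLn, hF3, ⟨f⟩⟩ := claim2 hall hFT h3' hd h4 hcard H₁ hH₁b htwo' hn3'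
  let N : Subgroup H := (L.comap e.toMonoidHom).subgroupOf H
  have hle : L.comap e.toMonoidHom ≤ H := by
    intro x hx
    have h5 := (hH₁ _).1 (hLH hx)
    change e.symm (e x) ∈ H at h5
    rwa [e.symm_apply_apply] at h5
  have hNn : (L.comap e.toMonoidHom).Normal := inferInstance
  refine ⟨N, F, hF1, hF2, inferInstance, hF3, ⟨?_⟩⟩
  refine (Subgroup.subgroupOfEquivOfLe hle).trans (MulEquiv.trans ?_ f)
  have hmap : (L.comap e.toMonoidHom).map e.toMonoidHom = L :=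
    Subgroup.map_comap_eq_self_of_surjective e.surjective L
  exact (e.subgroupMap (L.comap e.toMonoidHom)).trans (MulEquiv.subgroupCongr hmap)

end

end Cfsg.Agent.H322.Tri
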