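import Cfsg.Agent.HKS.Goals
import Cfsg.Agent.HKS.Affine
import Cfsg.Agent.KantorSeitz.OfBase

/-!
# Commutative regular normal subgroups of a point stabiliser (even degree divisible by 3)

A transitive group whose point stabiliser has a commutative normal subgroup `R` regular on the remaining points,
of even degree divisible by 3: the conjugates of `R` generate `PSL(2,q)` in its action of degree `q + 1`.
-/

set_option autoImplicit false

namespace Cfsg.Agent.H322.Tri

open Subgroup MulAction Cfsg.Agent.HKS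
open Cfsg.Agent.KantorSeitz (ofBase mem_ofBase ofBase_self)

universe v

section

variable {G Ω : Type*} [Group G] [MulAction G Ω]

/-- the hypotheses on the subgroup `R` of the stabiliser of `a` -/
structure Reg (R : Subgroup G) (a : Ω) : Prop where
  tr : ∀ c : Ω, ∃ g : G, g • a = c
  fix : ∀ x ∈ R, x • a = a
  inv : ∀ g : G, g • a = a → ∀ x ∈ R, g * x * g⁻¹ ∈ R
  trans : ∀ b c : Ω, b ≠ a → c ≠ a → ∃ x ∈ R, x • b = c
  free : ∀ b : Ω, b ≠ a → ∀ x ∈ R, x • b = b → x = 1
  comm : ∀ x ∈ R, ∀ y ∈ R, x * y = y * x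

variable {R : Subgroup G} {a : Ω}

theorem Reg.ssplit [Finite Ω] (h : Reg R a) (h3 : 2 < Nat.card Ω) : SSplit (ofBase R a : Ω → Subgroup G) where
  fix := by
    intro c x hx
    obtain ⟨g, rfl⟩ := h.tr c
    have h1 := h.fix _ (hx g rfl)
    rw [mul_smul, mul_smul, inv_smul_eq_iff] at h1
    exact h1
  conj := by
    intro g c x hx k hk
    have h1 := hx (g⁻¹ * k) (by rw [mul_smul, hk, inv_smul_smul])
    have h2 : (g⁻¹ * k)⁻¹ * x * (g⁻¹ * k) = k⁻¹ * (g * x * g⁻¹) * k := by group
    rwa [h2] at h1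
  trans := by
    intro c d e hd he
    obtain ⟨g, rfl⟩ := h.tr c
    obtain ⟨x, hx, hxd⟩ := h.trans (g⁻¹ • d) (g⁻¹ • e) (by rw [Ne, inv_smul_eq_iff]; exact hd)
      (by rw [Ne, inv_smul_eq_iff]; exact he)
    refine ⟨g * x * g⁻¹, (mem_ofBase h.inv rfl).2 ?_, ?_⟩
    · have h3 : g⁻¹ * (g * x * g⁻¹) * g = x := by group
      rwa [h3]
    · rw [mul_smul, mul_smul, hxd, smul_inv_smul]
  free := by
    intro c d x hd hx hxd
    obtain ⟨g, rfl⟩ := h.tr c
    have h1 := hx g rfl
    have h2 := h.free (g⁻¹ • d) (by rw [Ne, inv_smul_eq_iff]; exact hd) _ h1 (by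
      rw [mul_smul, mul_smul, smul_inv_smul, hxd])
    have h3 : x = g * (g⁻¹ * x * g) * g⁻¹ := by group
    rw [h3, h2]
    group
  nil := by
    intro c
    obtain ⟨g, rfl⟩ := h.tr c
    have hc : IsMulCommutative (ofBase R a (g • a) : Subgroup G) := by
      refine ⟨⟨fun x y => Subtype.ext ?_⟩⟩
      have h1 := h.comm _ (x.2 g rfl) _ (y.2 g rfl)
      change (x : G) * y = y * x
      have h2 : (x : G) * y = g * ((g⁻¹ * x * g) * (g⁻¹ * y * g)) * g⁻¹ := by group
      rw [h2, h1]
      group
    let _ : CommGroup (ofBase R a (g • a) : Subgroup G) :=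
      { (inferInstance : Group (ofBase R a (g • a) : Subgroup G)) with mul_comm := hc.is_comm.comm }
    exact CommGroup.isNilpotent
  three := SSplit.three_of_card h3

end

section

variable {G Ω : Type v} [Group G] [MulAction G Ω] [FaithfulSMul G Ω] [Finite Ω]
variable {R : Subgroup G} {a : Ω}

/-- regular commutative point groups, even degree divisible by 3 -/
theorem Reg.main (hall : ∀ n, HKSBelow.{v} n) (h : Reg R a) (hev : Even (Nat.card Ω)) (h3 : 3 ∣ Nat.card Ω) :
    (∃ (F : Type) (_ : Field F) (_ : Fintype F), Fintype.card F + 1 = Nat.card Ω ∧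
      Nonempty (↥(⨆ c, ofBase R a c : Subgroup G) ≃* Matrix.ProjectiveSpecialLinearGroup (Fin 2) F)) ∧
    ∀ b : Ω, b ≠ a → ∀ c₁ c₂ c₃ : Ω, c₁ ≠ a → c₁ ≠ b → c₂ ≠ a → c₂ ≠ b → c₃ ≠ a → c₃ ≠ b →
      ∃ g ∈ (⨆ c, ofBase R a c : Subgroup G), g • a = a ∧ g • b = b ∧ (g • c₁ = c₂ ∨ g • c₁ = c₃ ∨ g • c₂ = c₃) := by
  have hcard : 2 < Nat.card Ω := by
    have h0 : Nat.card Ω ≠ 0 := by
      have : Nonempty Ω := ⟨a⟩
      exact Nat.card_pos.ne'
    omega
  have hS := h.ssplit hcard
  have hL := hS.gen
  have hgen := SSplit.gen_iSup (U := (ofBase R a : Ω → Subgroup G)) (⨆ c, ofBase R a c) rfl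
  set M : Subgroup G := ⨆ c, ofBase R a c with hM
  set U : Ω → Subgroup M := fun c => (ofBase R a c).subgroupOf M with hU
  have hRa : (ofBase R a a : Subgroup G) = R := ofBase_self h.inv
  have hUa : ∀ u : M, u ∈ U a ↔ (u : G) ∈ R := by
    intro u
    rw [hU, mem_subgroupOf, hRa]
  have hUcomm : ∀ u ∈ U a, ∀ v ∈ U a, u * v = v * u := by
    intro u hu v hv
    exact Subtype.ext (h.comm _ ((hUa u).1 hu) _ ((hUa v).1 hv))
  have hcardU := hL.card a
  obtain ⟨b0, hb0, -⟩ := hL.three a a
  have key : ∀ b : Ω, b ≠ a → ∃ q, TL U a b q := by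
    intro b hba
    have hT := hall (Nat.card Ω + 1) M Ω U hL hgen hev (Nat.lt_succ_self _) a b hba
    rcases hT with hT | hT | ⟨q, hT⟩ | ⟨n, hT⟩
    · exfalso
      obtain ⟨E, -, -, hsq, htr, hfr, -, -⟩ := hL.sharp_normal hev hba hT
      have hp : IsPGroup 2 E := by
        intro x
        refine ⟨1, Subtype.ext ?_⟩
        have := hsq x x.2
        rw [pow_one, pow_two]
        exact this
      have hfin : Finite M := finite_of_faithful (Ω := Ω)
      obtain ⟨k, hk⟩ := hp.exists_card_eq
      have hbij : Function.Bijective (fun x : E => (x : M) • a) := by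
        constructor
        · intro x y hxy
          have h1 : ((y : M)⁻¹ * x) • a = a := by
            rw [mul_smul, inv_smul_eq_iff]; exact hxy
          have h2 := hfr a _ (E.mul_mem (E.inv_mem y.2) x.2) h1
          exact Subtype.ext (inv_mul_eq_one.1 h2).symm
        · intro c
          obtain ⟨x, hx, hxc⟩ := htr a c
          exact ⟨⟨x, hx⟩, hxc⟩
      have h5 : Nat.card Ω = 2 ^ k := by
        rw [← Nat.card_congr (Equiv.ofBijective _ hbij), hk]
      rw [h5] at h3
      have := (Nat.prime_three.dvd_of_dvd_pow h3)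
      omega
    · exact hT
    · exfalso
      have h5 : (U a ⊓ centralizer (U a : Set M) : Subgroup M) = U a := by
        apply le_antisymm inf_le_left
        refine le_inf le_rfl ?_
        intro u hu
        rw [mem_centralizer_iff]
        intro v hv
        exact hUcomm v hv u hu
      have h6 := hT.cardZ
      rw [h5, hT.card] at h6
      have hq := hT.pow.one_lt
      have : q * 1 < q ^ 3 := by
        have : q ^ 3 = q * (q * q) := by ring
        rw [this]
        apply Nat.mul_lt_mul_of_pos_left _ (by omega)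
        nlinarith
      omega
    · exfalso
      obtain ⟨u, hu, v, hv, huv⟩ := hT.data.ncomm
      exact huv (hUcomm u hu v hv)
  refine ⟨?_, ?_⟩
  · obtain ⟨q, hT⟩ := key b0 hb0
    obtain ⟨F, i1, i2, hF, f, hf, hf1⟩ := hT.iso
    refine ⟨F, i1, i2, ?_, ?_⟩
    · rw [hF, hcardU, hT.card]
    · have hinj : Function.Injective f := by
        rw [injective_iff_map_eq_one]
        intro x hx
        exact Subtype.ext (mem_bot.1 ((hf1 x).1 hx))
      exact ⟨(topEquiv (G := M)).symm.trans (MulEquiv.ofBijective f ⟨hinj, hf⟩)⟩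
  · intro b hba c₁ c₂ c₃ h1a h1b h2a h2b h3a h3b
    obtain ⟨q, hT⟩ := key b hba
    have hfin : Finite M := finite_of_faithful (Ω := Ω)
    have hcE : 2 * Nat.card (Dab M a b) = q - 1 := by
      have := hT.cardE
      rwa [relIndex_bot_left] at this
    -- the stabiliser of `a`, `b` is semiregular on the other points
    have hfree : ∀ d ∈ Dab M a b, ∀ c : Ω, c ≠ a → c ≠ b → d • c = c → d = 1 := by
      intro d hd c hca hcb hdc
      obtain ⟨u, hu, hub⟩ := hL.trans (a := a) hba hca
      have hdu : d * u * d⁻¹ ∈ U a := hL.conj_of_fix hd.1 hu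
      have h5 : d * u * d⁻¹ = u := by
        refine hL.eq_of_smul_eq hba hdu hu ?_
        have hd2 : d⁻¹ • b = b := by rw [inv_smul_eq_iff]; exact hd.2.symm
        rw [mul_smul, mul_smul, hd2, hub, hdc]
      rcases hT.free d hd u hu (mul_inv_eq_iff_eq_mul.1 h5) with h6 | h6
      · exact mem_bot.1 h6
      · exfalso
        rw [h6, one_smul] at hub
        exact hcb hub.symm
    by_contra hcon
    push Not at hcon
    have hcon' : ∀ d ∈ Dab M a b, d • c₁ ≠ c₂ ∧ d • c₁ ≠ c₃ ∧ d • c₂ ≠ c₃ := by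
      intro d hd
      exact hcon d d.2 hd.1 hd.2
    -- an injection of three copies of `Dab M a b` into `Ω ∖ {a, b}`
    classical
    have := Fintype.ofFinite Ω
    have := Fintype.ofFinite M
    let c : Fin 3 → Ω := ![c₁, c₂, c₃]
    have hca : ∀ i, c i ≠ a := by
      intro i; fin_cases i <;> simp [c, h1a, h2a, h3a]
    have hcb : ∀ i, c i ≠ b := by
      intro i; fin_cases i <;> simp [c, h1b, h2b, h3b]
    have hcc : ∀ i j, ∀ d ∈ Dab M a b, d • c i = c j → i = j := by
      intro i j d hd hij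
      have hd1 := hcon' d hd
      have hd2 := hcon' d⁻¹ (inv_mem hd)
      fin_cases i <;> fin_cases j <;> simp [c] at hij ⊢
      · exact hd1.1 hij
      · exact hd1.2.1 hij
      · exact hd2.1 (by rw [inv_smul_eq_iff]; exact hij.symm)
      · exact hd1.2.2 hij
      · exact hd2.2.1 (by rw [inv_smul_eq_iff]; exact hij.symm)
      · exact hd2.2.2 (by rw [inv_smul_eq_iff]; exact hij.symm)
    have hne : ∀ i (d : Dab M a b), (d : M) • c i ∉ ({a, b} : Finset Ω) := by
      intro i d hmem
      rw [Finset.mem_insert, Finset.mem_singleton] at hmem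
      rcases hmem with h5 | h5
      · apply hca i
        exact MulAction.injective (d : M) (h5.trans d.2.1.symm)
      · apply hcb i
        exact MulAction.injective (d : M) (h5.trans d.2.2.symm)
    let φ : Fin 3 × Dab M a b → {x : Ω // x ∉ ({a, b} : Finset Ω)} := fun p => ⟨(p.2 : M) • c p.1, hne p.1 p.2⟩
    have hφ : Function.Injective φ := by
      rintro ⟨i, d⟩ ⟨j, e⟩ hij
      have h5 : (d : M) • c i = (e : M) • c j := congrArg Subtype.val hij
      have h6 : ((e : M)⁻¹ * d) • c i = c j := by rw [mul_smul, h5, inv_smul_smul]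
      have hmem : (e : M)⁻¹ * d ∈ Dab M a b := mul_mem (inv_mem e.2) d.2
      have h7 := hcc i j _ hmem h6
      subst h7
      have h8 := hfree _ hmem (c i) (hca i) (hcb i) h6
      have h9 : (e : M) = d := inv_mul_eq_one.1 h8
      rw [Prod.mk.injEq]
      exact ⟨rfl, Subtype.ext h9.symm⟩
    have h10 := Nat.card_le_card_of_injective φ hφ
    rw [Nat.card_prod, Nat.card_eq_fintype_card (α := Fin 3), Fintype.card_fin] at h10
    have h11 : Nat.card {x : Ω // x ∉ ({a, b} : Finset Ω)} = Nat.card Ω - 2 := by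
      rw [Nat.card_eq_fintype_card, Nat.card_eq_fintype_card, Fintype.card_subtype_compl]
      congr 1
      rw [Fintype.card_coe, Finset.card_pair hba.symm]
    rw [h11, hcardU, hT.card] at h10
    have h12 := hT.three
    omega

end

end Cfsg.Agent.H322.Tri
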