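import Cfsg.Agent.H322.Tri.LemA
import Cfsg.Agent.PermutationGroups.TwoTransitiveNormal

/-!
# Minimal normal subgroups of a point stabiliser of a 3-transitive group
-/

set_option autoImplicit false

namespace Cfsg.Agent.H322.Tri

open Subgroup MulAction SubMulAction
open Cfsg.Agent.PermutationGroups.TwoTransitiveNormal

/-- 3-transitivity, elementwise -/
def T3 (G Ω : Type*) [Group G] [MulAction G Ω] : Prop :=
  ∀ a b c a' b' c' : Ω, a ≠ b → a ≠ c → b ≠ c → a' ≠ b' → a' ≠ c' → b' ≠ c' →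
    ∃ g : G, g • a = a' ∧ g • b = b' ∧ g • c = c'

/-- a nonabelian simple normal subgroup of the stabiliser of `a`, primitive on the remaining points -/
structure Simp {G Ω : Type*} [Group G] [MulAction G Ω] (R : Subgroup G) (a : Ω) : Prop where
  simple : IsSimpleGroup R
  ncomm : ∃ x y : R, x * y ≠ y * x
  fix : ∀ x ∈ R, x • a = a
  inv : ∀ g : G, g • a = a → ∀ x ∈ R, g * x * g⁻¹ ∈ R
  trans : ∀ b c : Ω, b ≠ a → c ≠ a → ∃ x ∈ R, x • b = c
  max : ∀ b : Ω, b ≠ a → ∀ K : Subgroup R, stabilizer R b ≤ K → K = stabilizer R b ∨ K = ⊤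

variable {G Ω : Type*} [Group G] [Finite G] [MulAction G Ω] [FaithfulSMul G Ω] [Finite Ω]

omit [Finite G] [FaithfulSMul G Ω] in
theorem T3.two (h3 : T3 G Ω) (hcard : 2 < Nat.card Ω) : ∀ a b c d : Ω, a ≠ b → c ≠ d →
    ∃ g : G, g • a = c ∧ g • b = d := by
  intro a b c d hab hcd
  obtain ⟨x, hxa, hxb⟩ := Cfsg.Agent.HKS.SSplit.three_of_card hcard a b
  obtain ⟨y, hyc, hyd⟩ := Cfsg.Agent.HKS.SSplit.three_of_card hcard c d
  obtain ⟨g, h1, h2, -⟩ := h3 a b x c d y hab hxa.symm hxb.symm hcd hyc.symm hyd.symm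
  exact ⟨g, h1, h2⟩

omit [Finite G] [FaithfulSMul G Ω] in
theorem T3.one (h3 : T3 G Ω) (hcard : 2 < Nat.card Ω) : ∀ a b : Ω, ∃ g : G, g • a = b := by
  intro a b
  obtain ⟨x, hxa, -⟩ := Cfsg.Agent.HKS.SSplit.three_of_card hcard a a
  obtain ⟨y, hyc, -⟩ := Cfsg.Agent.HKS.SSplit.three_of_card hcard b b
  obtain ⟨g, h1, -⟩ := h3.two hcard a x b y hxa.symm hyc.symm
  exact ⟨g, h1⟩

theorem exists_min (h3 : T3 G Ω) (hcard : 3 < Nat.card Ω) (X : Subgroup G) [hXn : X.Normal] (a : Ω)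
    (hX : ∃ x ∈ X, x ≠ 1 ∧ x • a = a) : ∃ R : Subgroup G, R ≤ X ∧ (Reg R a ∨ Simp R a) := by
  classical
  let S : Subgroup G := stabilizer G a
  let Y := ofStabilizer G a
  have hYmem : ∀ c : Ω, c ∈ Y ↔ c ≠ a := fun c => mem_ofStabilizer_iff G a
  have hYcard : Nat.card Y + 1 = Nat.card Ω := by
    rw [← Cfsg.Agent.HKS.card_ne_pt a]
    rfl
  have hntr : Nontrivial Y := by
    rw [← Finite.one_lt_card_iff_nontrivial]
    omega
  have hf : FaithfulSMul S Y := by
    constructor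
    intro x y hxy
    apply Subtype.ext
    apply FaithfulSMul.eq_of_smul_eq_smul (α := Ω)
    intro c
    by_cases hc : c = a
    · rw [hc]
      have h1 : (x : G) • a = a := x.2
      have h2 : (y : G) • a = a := y.2
      rw [h1, h2]
    · exact congrArg Subtype.val (hxy ⟨c, (hYmem c).2 hc⟩)
  have h2 : ∀ b c d e : Y, b ≠ c → d ≠ e → ∃ g : S, g • b = d ∧ g • c = e := by
    rintro ⟨b, hb⟩ ⟨c, hc⟩ ⟨d, hd⟩ ⟨e, he⟩ hbc hde
    obtain ⟨g, hga, hgb, hgc⟩ := h3 a b c a d e ((hYmem b).1 hb).symm ((hYmem c).1 hc).symm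
      (fun h => hbc (Subtype.ext h)) ((hYmem d).1 hd).symm ((hYmem e).1 he).symm (fun h => hde (Subtype.ext h))
    exact ⟨⟨g, hga⟩, Subtype.ext hgb, Subtype.ext hgc⟩
  have hprimS : IsPreprimitive S Y := by
    apply isPreprimitive_of_is_two_pretransitive
    rw [is_two_pretransitive_iff]
    intro b c d e hbc hde
    exact h2 b c d e hbc hde
  -- minimal normal subgroup
  let X₀ : Subgroup S := X.subgroupOf S
  have hX₀n : X₀.Normal := inferInstance
  have hX₀ : X₀ ≠ ⊥ := by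
    obtain ⟨x, hx, hx1, hxa⟩ := hX
    intro h
    have h4 : (⟨x, hxa⟩ : S) ∈ X₀ := hx
    rw [h, mem_bot] at h4
    exact hx1 (congrArg Subtype.val h4)
  obtain ⟨N, ⟨hNn, hNX, hN1⟩, hmin⟩ := wellFounded_lt.has_min {N : Subgroup S | N.Normal ∧ N ≤ X₀ ∧ N ≠ ⊥}
    ⟨X₀, hX₀n, le_rfl, hX₀⟩
  have hmin' : ∀ M : Subgroup S, M.Normal → M ≤ N → M = ⊥ ∨ M = N := by
    intro M hM hMN
    by_cases hM1 : M = ⊥
    · exact Or.inl hM1
    right
    by_contra hne
    exact hmin M ⟨hM, hMN.trans hNX, hM1⟩ (lt_of_le_of_ne hMN hne)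
  have hNtr : IsPretransitive N Y := isPretransitive_of_normal_of_ne_bot N hN1
  let R : Subgroup G := N.map S.subtype
  have hRX : R ≤ X := by
    rintro _ ⟨x, hx, rfl⟩
    exact hNX hx
  have hRfix : ∀ x ∈ R, x • a = a := by
    rintro _ ⟨x, hx, rfl⟩
    exact x.2
  have hRinv : ∀ g : G, g • a = a → ∀ x ∈ R, g * x * g⁻¹ ∈ R := by
    rintro g hg _ ⟨x, hx, rfl⟩
    exact ⟨⟨g, hg⟩ * x * ⟨g, hg⟩⁻¹, hNn.conj_mem x hx _, rfl⟩
  have hRtr : ∀ b c : Ω, b ≠ a → c ≠ a → ∃ x ∈ R, x • b = c := by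
    intro b c hb hc
    obtain ⟨⟨x, hx⟩, hxb⟩ := hNtr.exists_smul_eq (⟨b, (hYmem b).2 hb⟩ : Y) ⟨c, (hYmem c).2 hc⟩
    exact ⟨x, ⟨x, hx, rfl⟩, congrArg Subtype.val hxb⟩
  refine ⟨R, hRX, ?_⟩
  by_cases hcomm : ∀ x ∈ R, ∀ y ∈ R, x * y = y * x
  · left
    refine ⟨h3.one (by omega) a, hRfix, hRinv, hRtr, ?_, hcomm⟩
    intro b hb x hx hxb
    apply FaithfulSMul.eq_of_smul_eq_smul (α := Ω)
    intro c
    rw [one_smul]
    by_cases hc : c = a
    · rw [hc, hRfix x hx]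
    · obtain ⟨y, hy, rfl⟩ := hRtr b c hb hc
      rw [← mul_smul, hcomm x hx y hy, mul_smul, hxb]
  right
  rcases burnside_minimal_normal h2 N hN1 hmin' with ⟨hc, -⟩ | ⟨hs, hp⟩
  · exfalso
    apply hcomm
    rintro _ ⟨x, hx, rfl⟩ _ ⟨y, hy, rfl⟩
    have := hc.is_comm.comm ⟨x, hx⟩ ⟨y, hy⟩
    exact congrArg (fun z : N => ((z : S) : G)) this
  · let e : N ≃* R := N.equivMapOfInjective S.subtype S.subtype_injective
    refine ⟨e.symm.isSimpleGroup, ?_, hRfix, hRinv, hRtr, ?_⟩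
    · push Not at hcomm
      obtain ⟨x, hx, y, hy, hxy⟩ := hcomm
      exact ⟨⟨x, hx⟩, ⟨y, hy⟩, fun h => hxy (congrArg Subtype.val h)⟩
    · intro b hb K hK
      let y : Y := ⟨b, (hYmem b).2 hb⟩
      have hco : IsCoatom (stabilizer N y) := by
        exact (isCoatom_stabilizer_iff_preprimitive N y).2 hp
      have hmemst : ∀ n : N, n ∈ stabilizer N y ↔ e n ∈ stabilizer R b := by
        intro n
        constructor
        · intro h
          exact congrArg Subtype.val h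
        · intro h
          exact Subtype.ext h
      have hle : stabilizer N y ≤ K.comap e.toMonoidHom := by
        intro n hn
        exact hK ((hmemst n).1 hn)
      rcases eq_or_lt_of_le hle with h5 | h5
      · left
        apply le_antisymm _ hK
        intro k hk
        have h6 : e.symm k ∈ K.comap e.toMonoidHom := by
          change e (e.symm k) ∈ K
          rwa [e.apply_symm_apply]
        rw [← h5, hmemst, e.apply_symm_apply] at h6
        exact h6
      · right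
        have h6 := hco.2 _ h5
        rw [eq_top_iff]
        intro k _
        have h7 : e.symm k ∈ K.comap e.toMonoidHom := by rw [h6]; exact mem_top _
        change e (e.symm k) ∈ K at h7
        rwa [e.apply_symm_apply] at h7

end Cfsg.Agent.H322.Tri
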