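import Cfsg.Agent.H322.Tri.MinB
import Cfsg.Agent.H322.Tri.Suz
import Cfsg.Agent.S0699

/-!
# 3-transitive groups of degree divisible by 3 with a normal subgroup whose point stabilisers are 3'-groups
-/

set_option autoImplicit false

namespace Cfsg.Agent.H322.Tri

open Subgroup MulAction
open Cfsg.Agent.HKS (HKSBelow)
open Cfsg.Agent.KantorSeitz (ofBase mem_ofBase ofBase_self)

universe v

theorem ofBase_le {G Ω : Type*} [Group G] [MulAction G Ω] {R X : Subgroup G} [hXn : X.Normal] {a : Ω} (h : Reg R a)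
    (hRX : R ≤ X) : (⨆ c, ofBase R a c : Subgroup G) ≤ X := by
  rw [iSup_le_iff]
  intro c x hx
  obtain ⟨g, rfl⟩ := h.tr c
  have h1 := hXn.conj_mem _ (hRX (hx g rfl)) g
  have h2 : g * (g⁻¹ * x * g) * g⁻¹ = x := by group
  rwa [h2] at h1

/-- two of three points -/
def Two {G Ω : Type*} [Group G] [MulAction G Ω] (X : Subgroup G) (a b : Ω) : Prop :=
  ∀ c₁ c₂ c₃ : Ω, c₁ ≠ a → c₁ ≠ b → c₂ ≠ a → c₂ ≠ b → c₃ ≠ a → c₃ ≠ b →
    ∃ g ∈ X, g • a = a ∧ g • b = b ∧ (g • c₁ = c₂ ∨ g • c₁ = c₃ ∨ g • c₂ = c₃)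

variable {G Ω : Type v} [Group G] [Finite G] [MulAction G Ω] [FaithfulSMul G Ω] [Finite Ω]

theorem propP (hall : ∀ n, HKSBelow.{v} n)
    (hSuz : ∀ (J : Type v) [Group J] [Finite J] [IsSimpleGroup J], (∃ a b : J, a * b ≠ b * a) →
      ¬ 3 ∣ Nat.card J → Cfsg.Lie.IsoSuzuki J)
    (h3 : T3 G Ω) (hd : 3 ∣ Nat.card Ω) (X : Subgroup G) [hXn : X.Normal] (hX1 : X ≠ ⊥) {a b : Ω} (hba : b ≠ a)
    (h3' : ∀ x ∈ X, x • a = a → orderOf x ≠ 3) : Two X a b := by
  classical
  intro c₁ c₂ c₃ h1a h1b h2a h2b h3a h3b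
  have := Fintype.ofFinite Ω
  have hcard : 2 < Nat.card Ω := by
    have h0 : Nat.card Ω ≠ 0 := by
      have : Nonempty Ω := ⟨a⟩
      exact Nat.card_pos.ne'
    omega
  rcases Nat.even_or_odd (Nat.card Ω) with hev | hodd
  swap
  · by_cases h5 : Nat.card Ω = 3
    · -- only one further point
      have h6 : c₁ = c₂ := by
        by_contra hne
        have h7 : ({a, b, c₁, c₂} : Finset Ω).card = 4 := by
          rw [Finset.card_insert_of_notMem, Finset.card_insert_of_notMem, Finset.card_insert_of_notMem,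
            Finset.card_singleton]
          · simpa using hne
          · simp only [Finset.mem_insert, Finset.mem_singleton, not_or]
            exact ⟨h1b.symm, h2b.symm⟩
          · simp only [Finset.mem_insert, Finset.mem_singleton, not_or]
            exact ⟨hba.symm, h1a.symm, h2a.symm⟩
        have h8 := Finset.card_le_univ ({a, b, c₁, c₂} : Finset Ω)
        rw [Nat.card_eq_fintype_card] at h5
        omega
      exact ⟨1, one_mem _, one_smul _ _, one_smul _ _, Or.inl (by rw [one_smul, h6])⟩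
    · have h6 : 5 ≤ Nat.card Ω := by
        obtain ⟨k, hk⟩ := hodd
        omega
      rw [Nat.card_eq_fintype_card] at hodd h6
      obtain ⟨g, hg, hga, hgb, hgc⟩ := Cfsg.Agent.S0699.three_trans hodd h6 h3 X hX1 a b c₁ a b c₂ hba.symm h1a.symm
        h1b.symm hba.symm h2a.symm h2b.symm
      exact ⟨g, hg, hga, hgb, Or.inl hgc⟩
  have hcard3 : 3 < Nat.card Ω := by
    obtain ⟨k, hk⟩ := hev
    omega
  have h2 := h3.two hcard
  -- the stabiliser of `a` in `X` is not trivial
  have hXa : ∃ x ∈ X, x ≠ 1 ∧ x • a = a := by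
    by_contra hcon
    push Not at hcon
    have hreg : ∀ c : Ω, stabilizer X c = ⊥ := by
      intro c
      rw [eq_bot_iff]
      rintro ⟨x, hx⟩ hxc
      obtain ⟨g, hg⟩ := h3.one hcard c a
      have h4 : (g * x * g⁻¹) • a = a := by
        rw [mul_smul, mul_smul, inv_smul_eq_iff.2 hg.symm]
        have h5 : x • c = c := hxc
        rw [h5, hg]
      have h5 : g * x * g⁻¹ = 1 := by
        by_contra h6
        exact hcon _ (hXn.conj_mem x hx g) h6 h4
      rw [mem_bot]
      apply Subtype.ext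
      have h6 : x = g⁻¹ * (g * x * g⁻¹) * g := by group
      change x = 1
      rw [h6, h5]; group
    have : Nonempty Ω := ⟨a⟩
    obtain ⟨-, p, hp, hpX⟩ :=
      Cfsg.Agent.PermutationGroups.TwoTransitiveNormal.regular_normal_elementary_abelian h2 X hreg
    have hprim : IsPreprimitive G Ω := by
      apply isPreprimitive_of_is_two_pretransitive
      rw [is_two_pretransitive_iff]
      intro b c d e hbc hde
      exact h2 b c d e hbc hde
    have htr : IsPretransitive X Ω :=
      Cfsg.Agent.PermutationGroups.TwoTransitiveNormal.isPretransitive_of_normal_of_ne_bot X hX1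
    have hcardX : Nat.card X = Nat.card Ω := by
      have h4 := MulAction.index_stabilizer_of_transitive X a
      rw [hreg, index_bot] at h4
      exact h4
    have hPX : IsPGroup p X := by
      intro x
      refine ⟨1, Subtype.ext ?_⟩
      rw [pow_one]
      exact hpX x x.2
    have : Fact p.Prime := ⟨hp⟩
    obtain ⟨k, hk⟩ := hPX.exists_card_eq
    rw [← hcardX, hk] at hev hd
    have h4 := (Nat.prime_dvd_prime_iff_eq Nat.prime_three hp).1 (Nat.prime_three.dvd_of_dvd_pow hd)
    rw [← h4] at hev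
    rw [Nat.even_pow] at hev
    exact absurd hev.1 (by decide)
  obtain ⟨R, hRX, hR | hR⟩ := exists_min h3 hcard3 X a hXa
  · obtain ⟨g, hg, h4⟩ := (hR.main hall hev hd).2 b hba c₁ c₂ c₃ h1a h1b h2a h2b h3a h3b
    exact ⟨g, ofBase_le hR hRX hg, h4⟩
  · exfalso
    have := hR.simple
    refine suz_false h2 hev hcard (hSuz R hR.ncomm ?_) hR.fix hR.inv hR.trans hR.max
    intro h4
    obtain ⟨x, hx⟩ := exists_prime_orderOf_dvd_card' 3 h4
    have h5 : orderOf (x : G) = 3 := by rw [orderOf_coe, hx]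
    exact h3' x (hRX x.2) (hR.fix x x.2) h5

end Cfsg.Agent.H322.Tri
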