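import Cfsg.Agent.H322.Tri.PropP

/-!
# Reduction to the fixed points of a Sylow 3-subgroup of a two-point stabiliser
-/

set_option autoImplicit false

namespace Cfsg.Agent.H322.Tri

open Subgroup MulAction
open Cfsg.Agent.HKS (HKSBelow)

section Witt

variable {G : Type*} [Group G] [Finite G]

/-- conjugate Sylow subgroups inside `L` -/
theorem exists_mem_normalizer {p : ℕ} [hp : Fact p.Prime] {D L : Subgroup G} {g : G} (hD : IsPGroup p D) (hDL : D ≤ L)
    (hg : ∀ x ∈ D, g * x * g⁻¹ ∈ L) (hr : ¬ p ∣ D.relIndex L) :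
    ∃ l ∈ L, ∀ x ∈ D, (l * g) * x * (l * g)⁻¹ ∈ D := by
  set E : Subgroup G := D.map (MulAut.conj g).toMonoidHom with hE
  have hEL : E ≤ L := by
    rintro _ ⟨x, hx, rfl⟩
    exact hg x hx
  have hEcard : Nat.card E = Nat.card D :=
    (Nat.card_congr (D.equivMapOfInjective (MulAut.conj g).toMonoidHom (MulAut.conj g).injective).toEquiv).symm
  have hEp : IsPGroup p E := hD.map _
  have hr' : ¬ p ∣ E.relIndex L := by
    have h1 : Nat.card E * E.relIndex L = Nat.card L := by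
      rw [← relIndex_bot_left, relIndex_mul_relIndex _ _ _ bot_le hEL, relIndex_bot_left]
    have h2 : Nat.card D * D.relIndex L = Nat.card L := by
      rw [← relIndex_bot_left, relIndex_mul_relIndex _ _ _ bot_le hDL, relIndex_bot_left]
    rw [hEcard, ← h2] at h1
    rwa [Nat.eq_of_mul_eq_mul_left Nat.card_pos h1]
  have hDp' : IsPGroup p (D.subgroupOf L) := hD.comap_of_injective L.subtype L.subtype_injective
  have hEp' : IsPGroup p (E.subgroupOf L) := hEp.comap_of_injective L.subtype L.subtype_injective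
  let P : Sylow p L := hDp'.toSylow hr
  let Q : Sylow p L := hEp'.toSylow hr'
  obtain ⟨l, hl⟩ := MulAction.exists_smul_eq L Q P
  refine ⟨l, l.2, ?_⟩
  intro x hx
  have h1 : (⟨g * x * g⁻¹, hg x hx⟩ : L) ∈ (Q : Subgroup L) := by
    change g * x * g⁻¹ ∈ E
    exact ⟨x, hx, rfl⟩
  have h2 : l * (⟨g * x * g⁻¹, hg x hx⟩ : L) * l⁻¹ ∈ ((l • Q : Sylow p L) : Subgroup L) := by
    rw [Sylow.coe_subgroup_smul]
    exact ⟨_, h1, rfl⟩
  rw [hl] at h2
  have h3 : (l : G) * (g * x * g⁻¹) * (l : G)⁻¹ ∈ D := h2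
  have h4 : (l : G) * g * x * ((l : G) * g)⁻¹ = (l : G) * (g * x * g⁻¹) * (l : G)⁻¹ := by group
  rwa [h4]

end Witt

section

variable {G Ω : Type*} [Group G] [Finite G] [MulAction G Ω] [Finite Ω]

/-- fixed points of a subgroup -/
def Fx (Ω : Type*) [MulAction G Ω] (D : Subgroup G) : Set Ω := {x | ∀ d ∈ D, d • x = x}

omit [Finite G] in
theorem three_dvd_Fx {D : Subgroup G} (hD : IsPGroup 3 D) (hd : 3 ∣ Nat.card Ω) : 3 ∣ Nat.card (Fx Ω D) := by
  have : Fact (Nat.Prime 3) := ⟨Nat.prime_three⟩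
  have h1 := hD.card_modEq_card_fixedPoints Ω
  have h2 : Nat.card (fixedPoints D Ω) = Nat.card (Fx Ω D) := by
    apply congrArg (fun s : Set Ω => Nat.card s)
    ext x
    constructor
    · intro h d hd
      exact h ⟨d, hd⟩
    · intro h d
      exact h d d.2
  rw [h2] at h1
  exact (Nat.modEq_zero_iff_dvd.1 (h1.symm.trans (Nat.modEq_zero_iff_dvd.2 hd)))

omit [Finite G] in
theorem exists_fx {D : Subgroup G} (hD : IsPGroup 3 D) (hd : 3 ∣ Nat.card Ω) {a : Ω} (b : Ω)
    (ha : ∀ d ∈ D, d • a = a) : ∃ c : Ω, c ≠ a ∧ c ≠ b ∧ ∀ d ∈ D, d • c = c := by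
  classical
  have := Fintype.ofFinite Ω
  have h1 := three_dvd_Fx hD hd
  have h2 : Nat.card (Fx Ω D) ≠ 0 := by
    have : Nonempty (Fx Ω D) := ⟨⟨a, ha⟩⟩
    exact Nat.card_pos.ne'
  by_contra hcon
  push Not at hcon
  have h3 : Fx Ω D ⊆ {a, b} := by
    intro c hc
    by_cases hca : c = a
    · exact Or.inl hca
    by_cases hcb : c = b
    · exact Or.inr hcb
    obtain ⟨d, hd, hdc⟩ := hcon c hca hcb
    exact absurd (hc d hd) hdc
  have h4 : Nat.card (Fx Ω D) ≤ 2 := by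
    rw [Nat.card_coe_set_eq]
    have h5 : ({a, b} : Set Ω).ncard ≤ 2 := (Set.ncard_insert_le a {b}).trans (by rw [Set.ncard_singleton])
    exact (Set.ncard_le_ncard h3 (Set.toFinite _)).trans h5
  omega

end

section Main

universe v w

variable {G : Type w} {Ω : Type v} [Group G] [Finite G] [MulAction G Ω] [FaithfulSMul G Ω] [Finite Ω]

/-- the stabiliser in `H` -/
def st (H : Subgroup G) (a : Ω) : Subgroup G := H ⊓ stabilizer G a

omit [Finite G] [FaithfulSMul G Ω] [Finite Ω] in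
theorem mem_st {H : Subgroup G} {a : Ω} {x : G} : x ∈ st H a ↔ x ∈ H ∧ x • a = a := Iff.rfl

/-- **Two of three points are equivalent.** -/
theorem two_of_three (hall : ∀ n, HKSBelow.{v} n)
    (hSuz : ∀ (J : Type v) [Group J] [Finite J] [IsSimpleGroup J], (∃ a b : J, a * b ≠ b * a) →
      ¬ 3 ∣ Nat.card J → Cfsg.Lie.IsoSuzuki J)
    (h3 : T3 G Ω) (hd : 3 ∣ Nat.card Ω) (H : Subgroup G) [hHn : H.Normal] (hH : H ≠ ⊥) {a b : Ω} (hba : b ≠ a) :
    Two H a b := by
  classical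
  have : Fact (Nat.Prime 3) := ⟨Nat.prime_three⟩
  intro c₁ c₂ c₃ h1a h1b h2a h2b h3a h3b
  have hcard : 2 < Nat.card Ω := by
    have h0 : Nat.card Ω ≠ 0 := by
      have : Nonempty Ω := ⟨a⟩
      exact Nat.card_pos.ne'
    omega
  have h2 := h3.two hcard
  have h1 := h3.one hcard
  -- `K = H_ab` and its Sylow subgroup `D`
  let K : Subgroup G := st H a ⊓ st H b
  have hK : ∀ x, x ∈ K ↔ x ∈ H ∧ x • a = a ∧ x • b = b := by
    intro x
    constructor
    · rintro ⟨h4, h5⟩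
      exact ⟨h4.1, h4.2, h5.2⟩
    · rintro ⟨h4, h5, h6⟩
      exact ⟨⟨h4, h5⟩, ⟨h4, h6⟩⟩
  let D₀ : Sylow 3 K := default
  let D : Subgroup G := (D₀ : Subgroup K).map K.subtype
  have hDp : IsPGroup 3 D := D₀.2.map _
  have hDK : D ≤ K := map_subtype_le _
  have hDH : D ≤ H := fun x hx => ((hK x).1 (hDK hx)).1
  have hDa : ∀ x ∈ D, x • a = a := fun x hx => ((hK x).1 (hDK hx)).2.1
  have hDb : ∀ x ∈ D, x • b = b := fun x hx => ((hK x).1 (hDK hx)).2.2
  have hDr : ¬ 3 ∣ D.relIndex K := by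
    have h4 : D.relIndex K = (D₀ : Subgroup K).index := by
      exact congrArg index (comap_map_eq_self_of_injective K.subtype_injective _)
    rw [h4]
    exact D₀.not_dvd_index
  -- `D` is a Sylow subgroup of every three point stabiliser and of every two point stabiliser
  have hDL : ∀ x y : Ω, x ≠ y → (∀ d ∈ D, d • x = x) → (∀ d ∈ D, d • y = y) → ∀ L : Subgroup G, D ≤ L →
      (∀ l ∈ L, l ∈ H ∧ l • x = x ∧ l • y = y) → ¬ 3 ∣ D.relIndex L := by
    intro x y hxy hx hy L hDL hL hdvd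
    obtain ⟨g, hg1, hg2⟩ := h2 x y a b hxy hba.symm
    -- conjugate of `L` in `K`
    let L' : Subgroup G := L.map (MulAut.conj g).toMonoidHom
    have hL'K : L' ≤ K := by
      rintro _ ⟨l, hl, rfl⟩
      obtain ⟨h4, h5, h6⟩ := hL l hl
      refine (hK _).2 ⟨hHn.conj_mem l h4 g, ?_, ?_⟩
      · change (g * l * g⁻¹) • a = a
        rw [mul_smul, mul_smul, inv_smul_eq_iff.2 hg1.symm, h5, hg1]
      · change (g * l * g⁻¹) • b = b
        rw [mul_smul, mul_smul, inv_smul_eq_iff.2 hg2.symm, h6, hg2]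
    have hL'card : Nat.card L' = Nat.card L :=
      (Nat.card_congr (L.equivMapOfInjective (MulAut.conj g).toMonoidHom (MulAut.conj g).injective).toEquiv).symm
    have h4 : Nat.card L' ∣ Nat.card K := Subgroup.card_dvd_of_le hL'K
    have h5 : Nat.card D * D.relIndex L = Nat.card L := by
      rw [← relIndex_bot_left, relIndex_mul_relIndex _ _ _ bot_le hDL, relIndex_bot_left]
    have h6 : Nat.card D * D.relIndex K = Nat.card K := by
      rw [← relIndex_bot_left, relIndex_mul_relIndex _ _ _ bot_le hDK, relIndex_bot_left]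
    rw [hL'card, ← h5, ← h6] at h4
    have h7 : D.relIndex L ∣ D.relIndex K := Nat.dvd_of_mul_dvd_mul_left Nat.card_pos h4
    exact hDr (hdvd.trans h7)
  -- `D` is a Sylow subgroup of `H_x`, `x` a fixed point of `D`
  have hDx : ∀ x : Ω, (∀ d ∈ D, d • x = x) → ¬ 3 ∣ D.relIndex (st H x) := by
    intro x hx hdvd
    let T₀ : Sylow 3 (st H x) := default
    let T : Subgroup G := (T₀ : Subgroup (st H x)).map (st H x).subtype
    have hTp : IsPGroup 3 T := T₀.2.map _
    have hTx : T ≤ st H x := map_subtype_le _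
    obtain ⟨y, hyx, -, hy⟩ := exists_fx hTp hd (a := x) x (fun d hd' => (hTx hd').2)
    obtain ⟨g, hg1, hg2⟩ := h2 x y a b hyx.symm hba.symm
    let T' : Subgroup G := T.map (MulAut.conj g).toMonoidHom
    have hT'K : T' ≤ K := by
      rintro _ ⟨l, hl, rfl⟩
      have h4 := hTx hl
      have h6 := hy l hl
      refine (hK _).2 ⟨hHn.conj_mem l h4.1 g, ?_, ?_⟩
      · change (g * l * g⁻¹) • a = a
        rw [mul_smul, mul_smul, inv_smul_eq_iff.2 hg1.symm, mem_stabilizer_iff.1 h4.2, hg1]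
      · change (g * l * g⁻¹) • b = b
        rw [mul_smul, mul_smul, inv_smul_eq_iff.2 hg2.symm, h6, hg2]
    have hT'card : Nat.card T' = Nat.card T :=
      (Nat.card_congr (T.equivMapOfInjective (MulAut.conj g).toMonoidHom (MulAut.conj g).injective).toEquiv).symm
    have hDx' : D ≤ st H x := fun d hd' => ⟨hDH hd', hx d hd'⟩
    have h5 : Nat.card D * D.relIndex (st H x) = Nat.card (st H x) := by
      rw [← relIndex_bot_left, relIndex_mul_relIndex _ _ _ bot_le hDx', relIndex_bot_left]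
    have h6 : Nat.card T * T.relIndex (st H x) = Nat.card (st H x) := by
      rw [← relIndex_bot_left, relIndex_mul_relIndex _ _ _ bot_le hTx, relIndex_bot_left]
    have h7 : ¬ 3 ∣ T.relIndex (st H x) := by
      have h8 : T.relIndex (st H x) = (T₀ : Subgroup (st H x)).index := by
        exact congrArg index (comap_map_eq_self_of_injective (st H x).subtype_injective _)
      rw [h8]
      exact T₀.not_dvd_index
    -- `|T|` divides `|K|`, a power of 3, so it divides `|D|`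
    obtain ⟨k, hk⟩ := hTp.exists_card_eq
    obtain ⟨m, hm⟩ := hDp.exists_card_eq
    have h9 : Nat.card T ∣ Nat.card D := by
      have h10 : Nat.card T ∣ Nat.card K := hT'card ▸ Subgroup.card_dvd_of_le hT'K
      have h11 : Nat.card D * D.relIndex K = Nat.card K := by
        rw [← relIndex_bot_left, relIndex_mul_relIndex _ _ _ bot_le hDK, relIndex_bot_left]
      rw [← h11, hk] at h10
      rw [hk]
      exact (Nat.Coprime.pow_left k ((Nat.Prime.coprime_iff_not_dvd Nat.prime_three).2 hDr)).dvd_of_dvd_mul_right h10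
    obtain ⟨e, he⟩ := h9
    have h12 : D.relIndex (st H x) * e = T.relIndex (st H x) := by
      rw [← h5, he, mul_assoc] at h6
      have := Nat.eq_of_mul_eq_mul_left Nat.card_pos h6
      rw [this, mul_comm]
    exact h7 (h12 ▸ Dvd.dvd.mul_right hdvd e)
  -- every point is equivalent to a fixed point of `D`
  have hrep : ∀ c : Ω, c ≠ a → c ≠ b → ∃ k ∈ K, ∀ d ∈ D, d • k • c = k • c := by
    intro c hca hcb
    obtain ⟨c₀, hc₀a, hc₀b, hc₀⟩ := exists_fx hDp hd (a := a) b hDa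
    obtain ⟨g, hg1, hg2, hg3⟩ := h3 a b c₀ a b c hba.symm hc₀a.symm hc₀b.symm hba.symm hca.symm hcb.symm
    obtain ⟨l, hl, hlD⟩ := exists_mem_normalizer (g := g) hDp hDK (by
      intro x hx
      obtain ⟨h4, h5, h6⟩ := (hK x).1 (hDK hx)
      refine (hK _).2 ⟨hHn.conj_mem x h4 g, ?_, ?_⟩
      · rw [mul_smul, mul_smul, inv_smul_eq_iff.2 hg1.symm, h5, hg1]
      · rw [mul_smul, mul_smul, inv_smul_eq_iff.2 hg2.symm, h6, hg2]) hDr
    refine ⟨l, hl, ?_⟩
    intro d hd'
    -- `D` normalised by `l g`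
    have hle : D.map (MulAut.conj (l * g)).toMonoidHom = D := by
      apply Subgroup.eq_of_le_of_card_ge
      · rintro _ ⟨x, hx, rfl⟩
        exact hlD x hx
      · exact (Nat.card_congr (D.equivMapOfInjective (MulAut.conj (l * g)).toMonoidHom
          (MulAut.conj (l * g)).injective).toEquiv).le
    rw [← hle] at hd'
    obtain ⟨x, hx, rfl⟩ := hd'
    change ((l * g) * x * (l * g)⁻¹) • l • c = l • c
    have h7 : l • c = (l * g) • c₀ := by rw [mul_smul, hg3]
    rw [h7, mul_smul, mul_smul, inv_smul_smul, hc₀ x hx]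
  obtain ⟨k₁, hk₁, hd₁⟩ := hrep c₁ h1a h1b
  obtain ⟨k₂, hk₂, hd₂⟩ := hrep c₂ h2a h2b
  obtain ⟨k₃, hk₃, hd₃⟩ := hrep c₃ h3a h3b
  -- the action of `N_G(D)` on the fixed points of `D`
  let N : Subgroup G := normalizer (D : Set G)
  have hmemN : ∀ g : G, (∀ x ∈ D, g * x * g⁻¹ ∈ D) → g ∈ N := by
    intro g hg
    have h1 : (D.map (MulAut.conj g).toMonoidHom) = D := by
      apply Subgroup.eq_of_le_of_card_ge
      · rintro _ ⟨x, hx, rfl⟩
        exact hg x hx
      · exact (Nat.card_congr (D.equivMapOfInjective (MulAut.conj g).toMonoidHom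
          (MulAut.conj g).injective).toEquiv).le
    change g ∈ normalizer (D : Set G)
    rw [mem_normalizer_iff]
    intro x
    constructor
    · exact hg x
    · intro hx
      change g * x * g⁻¹ ∈ D at hx
      rw [← h1] at hx
      obtain ⟨y, hy, hyx⟩ := hx
      have h4 : y = x := (MulAut.conj g).injective hyx
      rw [← h4]; exact hy
  let Δ : SubMulAction N Ω :=
    { carrier := Fx Ω D
      smul_mem' := by
        rintro ⟨g, hg⟩ x hx d hd'
        have h4 : g⁻¹ * d * g ∈ D := by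
          have h5 := (mem_normalizer_iff.1 (inv_mem hg) d).1 hd'
          rwa [inv_inv] at h5
        have h5 := hx _ h4
        change d • g • x = g • x
        rw [mul_smul, mul_smul, inv_smul_eq_iff] at h5
        exact h5 }
  have hΔ : ∀ x : Ω, x ∈ Δ ↔ ∀ d ∈ D, d • x = x := fun x => Iff.rfl
  let φ := toPermHom N Δ
  let G' := φ.range
  have hφ : ∀ (g : N) (x : Δ), (φ.rangeRestrict g) • x = g • x := fun g x => rfl
  have hsurj : Function.Surjective φ.rangeRestrict := φ.rangeRestrict_surjective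
  let X' : Subgroup G' := (H.subgroupOf N).map φ.rangeRestrict
  have hX'n : X'.Normal := Subgroup.Normal.map inferInstance _ hsurj
  have hΔcard : 3 ∣ Nat.card Δ := three_dvd_Fx hDp hd
  -- moving points by elements of `N_H(D)` and `N_G(D)`
  have hT3 : T3 G' Δ := by
    rintro ⟨x, hx⟩ ⟨y, hy⟩ ⟨z, hz⟩ ⟨x', hx'⟩ ⟨y', hy'⟩ ⟨z', hz'⟩ hxy hxz hyz hxy' hxz' hyz'
    obtain ⟨g, hg1, hg2, hg3⟩ := h3 x y z x' y' z' (fun h => hxy (Subtype.ext h)) (fun h => hxz (Subtype.ext h))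
      (fun h => hyz (Subtype.ext h)) (fun h => hxy' (Subtype.ext h)) (fun h => hxz' (Subtype.ext h))
      (fun h => hyz' (Subtype.ext h))
    let L : Subgroup G := st H x' ⊓ st H y' ⊓ st H z'
    have hL : ∀ l, l ∈ L ↔ l ∈ H ∧ l • x' = x' ∧ l • y' = y' ∧ l • z' = z' := by
      intro l
      constructor
      · rintro ⟨⟨h4, h5⟩, h6⟩
        exact ⟨h4.1, h4.2, h5.2, h6.2⟩
      · rintro ⟨h4, h5, h6, h7⟩
        exact ⟨⟨⟨h4, h5⟩, ⟨h4, h6⟩⟩, ⟨h4, h7⟩⟩
    have hDL' : D ≤ L := fun d hd' => (hL d).2 ⟨hDH hd', hx' d hd', hy' d hd', hz' d hd'⟩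
    obtain ⟨l, hl, hlD⟩ := exists_mem_normalizer (g := g) (L := L) hDp hDL' (by
      intro d hd'
      refine (hL _).2 ⟨hHn.conj_mem d (hDH hd') g, ?_, ?_, ?_⟩
      · rw [mul_smul, mul_smul, inv_smul_eq_iff.2 hg1.symm, hx d hd', hg1]
      · rw [mul_smul, mul_smul, inv_smul_eq_iff.2 hg2.symm, hy d hd', hg2]
      · rw [mul_smul, mul_smul, inv_smul_eq_iff.2 hg3.symm, hz d hd', hg3]) (hDL x' y' (fun h => hxy' (Subtype.ext h)) hx' hy' L
        hDL' fun l hl => ⟨((hL l).1 hl).1, ((hL l).1 hl).2.1, ((hL l).1 hl).2.2.1⟩)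
    obtain ⟨hl0, hl1, hl2, hl3⟩ := (hL l).1 hl
    refine ⟨φ.rangeRestrict ⟨l * g, hmemN _ hlD⟩, ?_, ?_, ?_⟩
    · rw [hφ]; apply Subtype.ext
      change (l * g) • x = x'
      rw [mul_smul, hg1, hl1]
    · rw [hφ]; apply Subtype.ext
      change (l * g) • y = y'
      rw [mul_smul, hg2, hl2]
    · rw [hφ]; apply Subtype.ext
      change (l * g) • z = z'
      rw [mul_smul, hg3, hl3]
  -- `X' ≠ 1`
  have hprim : IsPreprimitive G Ω := by
    apply isPreprimitive_of_is_two_pretransitive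
    rw [is_two_pretransitive_iff]
    intro b c d e hbc hde
    exact h2 b c d e hbc hde
  have hHtr : IsPretransitive H Ω :=
    Cfsg.Agent.PermutationGroups.TwoTransitiveNormal.isPretransitive_of_normal_of_ne_bot H hH
  have hX'1 : X' ≠ ⊥ := by
    intro hbot
    obtain ⟨⟨h, hh⟩, hhab⟩ := hHtr.exists_smul_eq a b
    have hhab' : h • a = b := hhab
    have hDb' : D ≤ st H b := fun d hd' => ⟨hDH hd', hDb d hd'⟩
    obtain ⟨l, hl, hlD⟩ := exists_mem_normalizer (g := h) (L := st H b) hDp hDb' (by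
      intro d hd'
      refine ⟨hHn.conj_mem d (hDH hd') h, ?_⟩
      change (h * d * h⁻¹) • b = b
      rw [mul_smul, mul_smul, inv_smul_eq_iff.2 hhab'.symm, hDa d hd', hhab']) (hDx b hDb)
    have hmem : φ.rangeRestrict ⟨l * h, hmemN _ hlD⟩ ∈ X' :=
      ⟨⟨l * h, hmemN _ hlD⟩, mul_mem hl.1 hh, rfl⟩
    rw [hbot, mem_bot] at hmem
    have h4 := hφ ⟨l * h, hmemN _ hlD⟩ ⟨a, hDa⟩
    rw [hmem, one_smul] at h4
    have h5 : a = (l * h) • a := congrArg Subtype.val h4
    rw [mul_smul, hhab', mem_stabilizer_iff.1 hl.2] at h5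
    exact hba h5.symm
  -- no element of order 3 in the stabiliser
  have hno3 : ∀ x ∈ X', x • (⟨a, hDa⟩ : Δ) = ⟨a, hDa⟩ → orderOf x ≠ 3 := by
    rintro _ ⟨⟨x, hxN⟩, hxH, rfl⟩ hxa ho
    have hxa' : x • a = a := by
      rw [hφ] at hxa
      exact congrArg Subtype.val hxa
    have hxH' : x ∈ H := hxH
    -- the 3-part of `x`
    obtain ⟨k, m, hm, hk⟩ := Nat.exists_eq_pow_mul_and_not_dvd (orderOf_pos x).ne' 3 (by norm_num)
    -- `x ^ m` is a 3-element of `N_H(D)` fixing `a`, so it lies in `D`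
    have hxm : x ^ m ∈ D := by
      let M : Subgroup G := st H a ⊓ N
      have hDM : D ≤ M := fun d hd' => ⟨⟨hDH hd', hDa d hd'⟩, le_normalizer hd'⟩
      have hMr : ¬ 3 ∣ D.relIndex M := by
        intro hdvd
        apply hDx a hDa
        rw [← relIndex_mul_relIndex D M (st H a) hDM inf_le_left]
        exact Dvd.dvd.mul_right hdvd _
      have hDMn : (D.subgroupOf M).Normal := by
        constructor
        rintro ⟨d, hdM⟩ hdD ⟨g, hg⟩
        exact (mem_normalizer_iff.1 hg.2 d).1 hdD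
      have hDMp : IsPGroup 3 (D.subgroupOf M) := hDp.comap_of_injective M.subtype M.subtype_injective
      let P : Sylow 3 M := hDMp.toSylow hMr
      have hPn : (P : Subgroup M).Normal := hDMn
      have hxM : x ∈ M := ⟨⟨hxH', hxa'⟩, hxN⟩
      have hz : IsPGroup 3 (zpowers ((⟨x, hxM⟩ : M) ^ m)) := by
        apply IsPGroup.of_card (n := k)
        rw [Nat.card_zpowers]
        have h4 : orderOf (⟨x, hxM⟩ : M) = 3 ^ k * m := by
          rw [← hk, ← Subgroup.orderOf_coe]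
        rw [orderOf_pow' _ (by rintro rfl; exact hm (dvd_zero 3)), h4, Nat.gcd_eq_right (Dvd.intro_left _ rfl)]
        exact Nat.mul_div_cancel _ (Nat.pos_of_ne_zero (by rintro rfl; exact hm (dvd_zero 3)))
      obtain ⟨Q, hQ⟩ := hz.exists_le_sylow
      have hQP : Q = P := by
        have := Sylow.unique_of_normal P hPn
        exact Subsingleton.elim _ _
      rw [hQP] at hQ
      exact hQ (mem_zpowers _)
    have h4 : (φ.rangeRestrict ⟨x, hxN⟩) ^ m = 1 := by
      apply FaithfulSMul.eq_of_smul_eq_smul (α := Δ)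
      rintro ⟨y, hy⟩
      rw [← map_pow, hφ, one_smul]
      apply Subtype.ext
      change (x ^ m) • y = y
      exact hy _ hxm
    have h5 := orderOf_dvd_of_pow_eq_one h4
    rw [ho] at h5
    exact hm h5
  have hmain := propP hall hSuz hT3 hΔcard X' hX'1 (a := ⟨a, hDa⟩) (b := ⟨b, hDb⟩)
    (fun h => hba (congrArg Subtype.val h)) hno3
  have hne : ∀ c : Ω, ∀ k ∈ K, c ≠ a → c ≠ b → k • c ≠ a ∧ k • c ≠ b := by
    intro c k hk hca hcb
    obtain ⟨h4, h5, h6⟩ := (hK k).1 hk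
    constructor
    · intro h7
      exact hca (MulAction.injective k (h7.trans h5.symm))
    · intro h7
      exact hcb (MulAction.injective k (h7.trans h6.symm))
  obtain ⟨_, ⟨⟨g, hgN⟩, hgH, rfl⟩, hga, hgb, hgc⟩ := hmain ⟨k₁ • c₁, hd₁⟩ ⟨k₂ • c₂, hd₂⟩ ⟨k₃ • c₃, hd₃⟩
    (fun h => (hne c₁ k₁ hk₁ h1a h1b).1 (congrArg Subtype.val h)) (fun h => (hne c₁ k₁ hk₁ h1a h1b).2 (congrArg Subtype.val h))
    (fun h => (hne c₂ k₂ hk₂ h2a h2b).1 (congrArg Subtype.val h)) (fun h => (hne c₂ k₂ hk₂ h2a h2b).2 (congrArg Subtype.val h))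
    (fun h => (hne c₃ k₃ hk₃ h3a h3b).1 (congrArg Subtype.val h)) (fun h => (hne c₃ k₃ hk₃ h3a h3b).2 (congrArg Subtype.val h))
  have hga' : g • a = a := congrArg Subtype.val hga
  have hgb' : g • b = b := congrArg Subtype.val hgb
  have hgK : g ∈ K := (hK g).2 ⟨hgH, hga', hgb'⟩
  have fin : ∀ c d : Ω, ∀ k ∈ K, ∀ l ∈ K, g • k • c = l • d → ∃ h ∈ K, h • c = d := by
    intro c d k hk l hl h4
    exact ⟨l⁻¹ * g * k, mul_mem (mul_mem (inv_mem hl) hgK) hk, by rw [mul_smul, mul_smul, h4, inv_smul_smul]⟩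
  rcases hgc with h4 | h4 | h4
  · obtain ⟨h, hh, hhc⟩ := fin c₁ c₂ k₁ hk₁ k₂ hk₂ (congrArg Subtype.val h4)
    obtain ⟨h5, h6, h7⟩ := (hK h).1 hh
    exact ⟨h, h5, h6, h7, Or.inl hhc⟩
  · obtain ⟨h, hh, hhc⟩ := fin c₁ c₃ k₁ hk₁ k₃ hk₃ (congrArg Subtype.val h4)
    obtain ⟨h5, h6, h7⟩ := (hK h).1 hh
    exact ⟨h, h5, h6, h7, Or.inr (Or.inl hhc)⟩
  · obtain ⟨h, hh, hhc⟩ := fin c₂ c₃ k₂ hk₂ k₃ hk₃ (congrArg Subtype.val h4)
    obtain ⟨h5, h6, h7⟩ := (hK h).1 hh
    exact ⟨h, h5, h6, h7, Or.inr (Or.inr hhc)⟩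

end Main

end Cfsg.Agent.H322.Tri
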